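import Mathlib

/-!
Maps that agree with an affine map on every triple of points.
-/

set_option autoImplicit false

namespace CfsgLib.Recog

/-- A permutation of a vector space (characteristic not two) that agrees on every triple of points with
some affine map is affine. -/
theorem affine_of_agree_triples {K V : Type*} [Field K] [AddCommGroup V] [Module K V]
    (h2 : (2 : K) ≠ 0) (σ : Equiv.Perm V)
    (hσ : ∀ x y z : V, ∃ (A : V →ₗ[K] V) (b : V),
      σ x = A x + b ∧ σ y = A y + b ∧ σ z = A z + b) :
    ∃ (A : V ≃ₗ[K] V) (b : V), ∀ x, σ x = A x + b := by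
  have hline : ∀ (c : K) (x y : V), σ (x + c • (y - x)) = σ x + c • (σ y - σ x) := by
    intro c x y
    obtain ⟨A, b, h1, h2, h3⟩ := hσ x y (x + c • (y - x))
    rw [h1, h2, h3, map_add, map_smul, map_sub]
    simp only [smul_sub, smul_add]
    abel
  have hsmul : ∀ (c : K) (x : V), σ (c • x) - σ 0 = c • (σ x - σ 0) := by
    intro c x
    have := hline c 0 x
    rw [zero_add, sub_zero] at this
    rw [this, add_sub_cancel_left]
  have hadd : ∀ x y : V, σ (x + y) - σ 0 = (σ x - σ 0) + (σ y - σ 0) := by
    intro x y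
    have h1 := hline (2⁻¹ : K) x y
    have h3 : x + y = (2 : K) • (x + (2⁻¹ : K) • (y - x)) := by
      rw [smul_add, smul_smul, mul_inv_cancel₀ h2, one_smul, two_smul]; abel
    rw [h3, hsmul, h1, smul_sub, smul_add, smul_smul, mul_inv_cancel₀ h2, one_smul, two_smul,
      two_smul]
    abel
  let L : V →ₗ[K] V :=
    { toFun := fun x => σ x - σ 0
      map_add' := hadd
      map_smul' := hsmul }
  have hL : Function.Bijective L := (σ.trans (Equiv.subRight (σ 0))).bijective
  exact ⟨LinearEquiv.ofBijective L hL, σ 0, fun x => (sub_add_cancel _ _).symm⟩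

/-- Two finite families with the same linear relations differ by a linear automorphism. -/
theorem exists_linearEquiv_of_same_relations {K V ι : Type*} [Field K] [AddCommGroup V]
    [Module K V] [Fintype ι] (u w : ι → V)
    (h : ∀ c : ι → K, ∑ i, c i • u i = 0 ↔ ∑ i, c i • w i = 0) :
    ∃ A : V ≃ₗ[K] V, ∀ i, A (u i) = w i := by
  classical
  let f := Fintype.linearCombination K u
  let g := Fintype.linearCombination K w
  have hker : LinearMap.ker f = LinearMap.ker g := by
    ext c
    simp only [LinearMap.mem_ker, f, g, Fintype.linearCombination_apply]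
    exact h c
  let e : LinearMap.range f ≃ₗ[K] LinearMap.range g :=
    f.quotKerEquivRange.symm ≪≫ₗ Submodule.quotEquivOfEq _ _ hker ≪≫ₗ g.quotKerEquivRange
  obtain ⟨A, hA⟩ := Submodule.exists_linearEquiv_restrict_eq e
  refine ⟨A, fun i => ?_⟩
  have h1 : f (Pi.single i 1) = u i := by simp [f]
  have h2 : g (Pi.single i 1) = w i := by simp [g]
  have h3 := hA ⟨f (Pi.single i 1), LinearMap.mem_range_self f _⟩
  rw [← h1, ← h2, ← h3]
  simp [e]

/-- In dimension at least three a linear automorphism agrees on two vectors with one of determinant one. -/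
theorem exists_det_one_agree {K V : Type*} [Field K] [AddCommGroup V] [Module K V]
    [Module.Finite K V] (h3 : 3 ≤ Module.finrank K V) (A : V ≃ₗ[K] V) (u v : V) :
    ∃ B : V ≃ₗ[K] V, LinearMap.det (B : V →ₗ[K] V) = 1 ∧ B u = A u ∧ B v = A v := by
  classical
  have hlt : Submodule.span K {u, v} < ⊤ := by
    apply Submodule.lt_top_of_finrank_lt_finrank
    have h1 := finrank_span_finset_le_card (R := K) ({u, v} : Finset V)
    have h2 : ({u, v} : Finset V).card ≤ 2 := Finset.card_le_two
    rw [Set.finrank, Finset.coe_pair] at h1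
    omega
  obtain ⟨x, -, hx⟩ := SetLike.exists_of_lt hlt
  obtain ⟨f, hf0, hf1⟩ := LinearMap.exists_extend_of_notMem
    (0 : Submodule.span K {u, v} →ₗ[K] K) hx 1
  have hfu : f u = 0 := by
    simpa using LinearMap.congr_fun hf0 ⟨u, Submodule.subset_span (by simp)⟩
  have hfv : f v = 0 := by
    simpa using LinearMap.congr_fun hf0 ⟨v, Submodule.subset_span (by simp)⟩
  set c := LinearMap.det (A : V →ₗ[K] V) with hc
  have hc0 : c ≠ 0 := (LinearEquiv.isUnit_det' A).ne_zero
  have h1 : 1 + f ((c⁻¹ - 1) • x) = c⁻¹ := by rw [map_smul, hf1]; simp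
  have hu : IsUnit (1 + f ((c⁻¹ - 1) • x)) := by
    rw [h1]; exact (inv_ne_zero hc0).isUnit
  refine ⟨LinearEquiv.dilatransvection hu ≪≫ₗ A, ?_, ?_, ?_⟩
  · rw [LinearEquiv.coe_trans, LinearMap.det_comp, LinearEquiv.dilatransvection.coe_toLinearMap,
      LinearMap.transvection.det, h1, ← hc, mul_inv_cancel₀ hc0]
  · rw [LinearEquiv.trans_apply, LinearEquiv.dilatransvection.apply, hfu]; simp
  · rw [LinearEquiv.trans_apply, LinearEquiv.dilatransvection.apply, hfv]; simp

end CfsgLib.Recog
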