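import Mathlib

/-!
# Permutations of prime order: normal forms and counting
-/

set_option autoImplicit false

namespace CfsgLib.Recog

open Equiv

theorem card_fix_add_card_support {α : Type*} [Fintype α] [DecidableEq α] (σ : Perm α) :
    Nat.card {x // σ x = x} + σ.support.card = Fintype.card α := by
  rw [Nat.card_eq_fintype_card, Fintype.card_subtype, ← Finset.card_univ,
    ← Finset.card_filter_add_card_filter_not (s := Finset.univ) (fun x => σ x = x)]
  rfl

/-- Two permutations killed by a prime with the same number of points and of fixed points are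
conjugate. -/
theorem exists_equiv_conj_of_pow_prime {α β : Type*} [Finite α] [Finite β] {r : ℕ}
    (hr : r.Prime) (σ : Perm α) (τ : Perm β) (hσ : σ ^ r = 1) (hτ : τ ^ r = 1)
    (hcard : Nat.card α = Nat.card β)
    (hfix : Nat.card {x // σ x = x} = Nat.card {y // τ y = y}) :
    ∃ e : α ≃ β, ∀ x, e (σ x) = τ (e x) := by
  classical
  haveI := Fintype.ofFinite α
  haveI := Fact.mk hr
  obtain ⟨e₀⟩ := Finite.card_eq.1 hcard
  let τ' : Perm α := e₀.symm.permCongr τ
  have hτ' : τ' ^ r = 1 := by
    have : τ' = e₀.symm.permCongrHom τ := rfl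
    rw [this, ← map_pow, hτ, map_one]
  have hfix' : Nat.card {x // τ' x = x} = Nat.card {y // τ y = y} := by
    refine Nat.card_congr (e₀.subtypeEquiv fun x => ?_)
    simp [τ', Equiv.symm_apply_eq]
  have h1 := card_fix_add_card_support σ
  have h2 := card_fix_add_card_support τ'
  have h3 : σ.support.card = τ'.support.card := by omega
  have e1 := Perm.cycleType_of_pow_prime_eq_one hσ
  have e2 := Perm.cycleType_of_pow_prime_eq_one hτ'
  rw [← Perm.sum_cycleType, ← Perm.sum_cycleType, e1, e2, Multiset.sum_replicate,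
    Multiset.sum_replicate, smul_eq_mul, smul_eq_mul] at h3
  have h4 := Nat.eq_of_mul_eq_mul_right hr.pos h3
  have h5 : σ.cycleType = τ'.cycleType := by rw [e1, e2, h4]
  obtain ⟨c, hc⟩ := isConj_iff.1 (Perm.isConj_of_cycleType_eq h5)
  refine ⟨c.trans e₀, fun x => ?_⟩
  have : τ' (c x) = c (σ x) := by rw [← hc]; simp
  simp only [Equiv.trans_apply]
  rw [← this]
  simp [τ']

/-- An invariant finite set has as many points as fixed points, modulo `r`. -/
theorem card_modEq_card_fix_of_invariant {α : Type*} [DecidableEq α] {r : ℕ} (hr : r.Prime)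
    (σ : Perm α) (hσ : σ ^ r = 1) (S : Finset α) (hS : ∀ x ∈ S, σ x ∈ S) :
    S.card ≡ (S.filter fun x => σ x = x).card [MOD r] := by
  classical
  haveI := Fact.mk hr
  let f : Function.End S := fun x => ⟨σ x, hS x x.2⟩
  have hf : ∀ (k : ℕ) (x : S), ((f ^ k) x : α) = (σ ^ k) x := by
    intro k
    induction k with
    | zero => intro x; rfl
    | succ k ih =>
      intro x
      rw [pow_succ', pow_succ', Perm.mul_apply, ← ih]
      rfl
  have hf1 : f ^ r ^ 1 = 1 := by
    funext x
    apply Subtype.ext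
    rw [hf, pow_one, hσ]
    rfl
  have := Perm.card_fixedPoints_modEq hf1
  rw [Fintype.card_coe] at this
  refine this.trans ?_
  have : Fintype.card (Function.fixedPoints f) = (S.filter fun x => σ x = x).card := by
    rw [← Fintype.card_coe]
    refine Fintype.card_congr
      { toFun := fun x => ⟨x.1.1, Finset.mem_filter.2 ⟨x.1.2, congrArg Subtype.val x.2⟩⟩
        invFun := fun y => ⟨⟨y.1, (Finset.mem_filter.1 y.2).1⟩,
          Subtype.ext (Finset.mem_filter.1 y.2).2⟩
        left_inv := fun x => rfl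
        right_inv := fun y => rfl }
  rw [this]

/-- A permutation of prime order `r` with `c ≥ 1` cycles. -/
theorem exists_perm_orderOf_eq_prime {α : Type*} [Fintype α] [DecidableEq α] {r : ℕ}
    (hr : r.Prime) (c : ℕ) (hc : 1 ≤ c) (hcn : r * c ≤ Fintype.card α) :
    ∃ σ : Perm α, orderOf σ = r ∧ Nat.card {x // σ x = x} + r * c = Fintype.card α := by
  haveI := Fact.mk hr
  obtain ⟨σ, hσ⟩ := (Perm.exists_with_cycleType_iff α (m := Multiset.replicate c r)).2
    ⟨by simpa [mul_comm] using hcn, fun a ha => by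
      rw [Multiset.eq_of_mem_replicate ha]; exact hr.two_le⟩
  refine ⟨σ, ?_, ?_⟩
  · apply orderOf_eq_prime
    · rw [Perm.pow_prime_eq_one_iff, hσ]
      exact fun a ha => Multiset.eq_of_mem_replicate ha
    · rintro rfl
      rw [Perm.cycleType_one] at hσ
      have := congrArg Multiset.card hσ
      simp at this
      omega
  · rw [← card_fix_add_card_support σ, ← Perm.sum_cycleType, hσ]
    simp [mul_comm]

/-- A permutation of prime order `r` has some number `c ≥ 1` of cycles. -/
theorem exists_card_fix_of_orderOf_eq_prime {α : Type*} [Fintype α] [DecidableEq α] {r : ℕ}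
    (hr : r.Prime) (σ : Perm α) (hσ : orderOf σ = r) :
    ∃ c, 1 ≤ c ∧ Nat.card {x // σ x = x} + r * c = Fintype.card α := by
  obtain ⟨n, hn⟩ := Perm.cycleType_prime_order (hσ ▸ hr)
  refine ⟨n + 1, by omega, ?_⟩
  rw [← card_fix_add_card_support σ, ← Perm.sum_cycleType, hn, hσ,
    Multiset.sum_replicate, smul_eq_mul, mul_comm]

/-- The standard shift on `ι × ZMod r`. -/
def shiftPerm (ι : Type*) (r : ℕ) : Perm (ι × ZMod r) :=
  Equiv.prodCongr (Equiv.refl ι) (Equiv.addRight 1)

theorem shiftPerm_apply {ι : Type*} {r : ℕ} (x : ι × ZMod r) :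
    shiftPerm ι r x = (x.1, x.2 + 1) := rfl

theorem shiftPerm_pow_apply {ι : Type*} {r : ℕ} (k : ℕ) (x : ι × ZMod r) :
    (shiftPerm ι r ^ k) x = (x.1, x.2 + k) := by
  induction k with
  | zero => simp
  | succ k ih => rw [pow_succ', Perm.mul_apply, ih, shiftPerm_apply]; simp [add_assoc]

theorem shiftPerm_pow_self (ι : Type*) (r : ℕ) : shiftPerm ι r ^ r = 1 := by
  ext x : 1
  rw [shiftPerm_pow_apply]; simp

theorem shiftPerm_ne {ι : Type*} {r : ℕ} (hr : 1 < r) (x : ι × ZMod r) : shiftPerm ι r x ≠ x := by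
  haveI := Fact.mk hr
  intro h
  have := congrArg Prod.snd h
  simp [shiftPerm_apply] at this

theorem sumCongr_pow {α β : Type*} (σ : Perm α) (τ : Perm β) (k : ℕ) :
    (Perm.sumCongr σ τ) ^ k = Perm.sumCongr (σ ^ k) (τ ^ k) := by
  have := map_pow (Perm.sumCongrHom α β) (σ, τ) k
  exact this.symm

theorem card_fix_sumCongr {α β : Type*} [Finite α] [Finite β] (σ : Perm α) (τ : Perm β) :
    Nat.card {x // Perm.sumCongr σ τ x = x} =
      Nat.card {x // σ x = x} + Nat.card {y // τ y = y} := by
  rw [← Nat.card_sum]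
  refine Nat.card_congr ((Equiv.subtypeSum).trans (Equiv.sumCongr
    (Equiv.subtypeEquivRight fun x => by simp) (Equiv.subtypeEquivRight fun x => by simp)))

theorem card_fix_shiftPerm (ι : Type*) {r : ℕ} (hr : 1 < r) :
    Nat.card {x // shiftPerm ι r x = x} = 0 := by
  rw [Nat.card_eq_zero]
  exact Or.inl ⟨fun x => shiftPerm_ne hr x.1 x.2⟩

theorem card_fix_one (α : Type*) : Nat.card {x : α // (1 : Perm α) x = x} = Nat.card α :=
  Nat.card_congr (Equiv.subtypeUnivEquiv fun _ => rfl)

/-- The model permutation with `i` cycles of length `r` and `j` fixed points. -/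
def modelPerm (r i j : ℕ) : Perm ((Fin i × ZMod r) ⊕ Fin j) :=
  Perm.sumCongr (shiftPerm (Fin i) r) 1

theorem modelPerm_pow (r i j : ℕ) : modelPerm r i j ^ r = 1 := by
  rw [modelPerm, sumCongr_pow, shiftPerm_pow_self, one_pow, Perm.sumCongr_one]

theorem card_fix_modelPerm {r : ℕ} (hr : 1 < r) (i j : ℕ) :
    Nat.card {x // modelPerm r i j x = x} = j := by
  haveI : NeZero r := ⟨by omega⟩
  rw [modelPerm, card_fix_sumCongr, card_fix_shiftPerm _ hr, card_fix_one]; simp

theorem card_model {r : ℕ} (hr : 1 < r) (i j : ℕ) :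
    Nat.card ((Fin i × ZMod r) ⊕ Fin j) = r * i + j := by
  haveI : NeZero r := ⟨by omega⟩
  simp [mul_comm]

end CfsgLib.Recog
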